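import Mathlib
import Cfsg.Prelude.Def_SporadicB

/-! A non-split double cover of the alternating group of degree eight inside a Clifford group over `ZMod 3`. -/

set_option autoImplicit false
set_option maxRecDepth 100000
set_option linter.style.haveILetI false

namespace Cfsg.Lib.DoubleCoverEight

open Equiv

/-- The matrices. -/
abbrev M8 : Type := Matrix (Fin 8) (Fin 8) (ZMod 3)

/-- The signs of the seven anticommuting monomial matrices. -/
def sgn : Fin 8 → Fin 8 → ZMod 3 :=
  ![![1,1,1,1,1,1,1,1], ![2,1,2,1,2,1,1,2], ![2,1,1,2,2,2,1,1], ![2,2,1,1,2,1,2,1], ![2,1,1,1,1,2,2,2],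
    ![2,2,1,2,1,1,1,2], ![2,2,2,1,1,2,1,1], ![2,1,2,2,1,1,2,1]]

/-- The seven anticommuting square roots of `-1`. -/
def G (i : Fin 8) : M8 := Matrix.of fun r k => if k.val = r.val ^^^ i.val then sgn i r else 0

/-- The images of the products of two vectors. -/
def E (i j : Fin 8) : M8 :=
  if i = j then 1 else if i = 0 then G j else if j = 0 then -G i else -(G i * G j)

theorem G_apply (i r k : Fin 8) : G i r k = if k.val = r.val ^^^ i.val then sgn i r else 0 := rfl

/-- The monomial matrices. -/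
def mono (i : Fin 8) (c : Fin 8 → ZMod 3) : M8 :=
  Matrix.of fun r k => if k.val = r.val ^^^ i.val then c r else 0

theorem xor_lt (a b : Fin 8) : a.val ^^^ b.val < 8 := Nat.xor_lt_two_pow (n := 3) a.isLt b.isLt

theorem G_mul_G (i j : Fin 8) :
    G i * G j = mono ⟨i.val ^^^ j.val, xor_lt i j⟩ fun r => sgn i r * sgn j ⟨r.val ^^^ i.val, xor_lt r i⟩ := by
  ext r k
  rw [Matrix.mul_apply, Finset.sum_eq_single ⟨r.val ^^^ i.val, xor_lt r i⟩]
  · simp only [G_apply, mono, Matrix.of_apply, if_pos, Nat.xor_assoc]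
    by_cases h : k.val = r.val ^^^ (i.val ^^^ j.val) <;> simp [h]
  · intro l _ hl
    rw [G_apply, if_neg (fun h => hl (Fin.ext h)), zero_mul]
  · exact fun h => absurd (Finset.mem_univ _) h

theorem rel_check : ∀ i j : Fin 8, i ≠ 0 → j ≠ 0 → i ≠ j → ∀ r : Fin 8,
    sgn i r * sgn j ⟨r.val ^^^ i.val, xor_lt r i⟩ = -(sgn j r * sgn i ⟨r.val ^^^ j.val, xor_lt r j⟩) := by
  decide +kernel

theorem sq_check : ∀ i : Fin 8, i ≠ 0 → ∀ r : Fin 8, sgn i r * sgn i ⟨r.val ^^^ i.val, xor_lt r i⟩ = -1 := by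
  decide +kernel

theorem G_anti (i j : Fin 8) (hi : i ≠ 0) (hj : j ≠ 0) (h : i ≠ j) : G j * G i = -(G i * G j) := by
  rw [G_mul_G, G_mul_G]
  ext r k
  simp only [mono, Matrix.of_apply, Matrix.neg_apply, Nat.xor_comm j.val i.val]
  rw [rel_check i j hi hj h r]
  split_ifs <;> simp

theorem G_sq (i : Fin 8) (hi : i ≠ 0) : G i * G i = -1 := by
  rw [G_mul_G]
  ext r k
  simp only [mono, Matrix.of_apply, Matrix.neg_apply, Matrix.one_apply, Nat.xor_self, Nat.xor_zero,
    sq_check i hi r]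
  by_cases h : r = k
  · subst h; simp
  · rw [if_neg (fun e => h (Fin.ext e.symm)), if_neg h, neg_zero]

theorem E_zero (j : Fin 8) (hj : j ≠ 0) : E 0 j = G j := by simp [E, Ne.symm hj]

theorem E_self_zero (i : Fin 8) (hi : i ≠ 0) : E i 0 = -G i := by simp [E, hi]

theorem E_pos (i j : Fin 8) (hi : i ≠ 0) (hj : j ≠ 0) (h : i ≠ j) : E i j = -(G i * G j) := by
  simp [E, h, hi, hj]

theorem E_triple (a b c : Fin 8) (hab : a ≠ b) (hac : a ≠ c) (hbc : b ≠ c) : E b c = -(E a b * E a c) := by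
  by_cases ha : a = 0
  · subst ha
    rw [E_zero b hab.symm, E_zero c hac.symm, E_pos b c hab.symm hac.symm hbc]
  by_cases hb : b = 0
  · subst hb
    rw [E_self_zero a ha, E_pos a c ha hbc.symm hac, E_zero c hbc.symm]
    simp only [neg_mul, mul_neg, neg_neg, ← mul_assoc, G_sq a ha, one_mul]
  by_cases hc : c = 0
  · subst hc
    rw [E_self_zero a ha, E_pos a b ha hb hab, E_self_zero b hb]
    simp only [neg_mul, mul_neg, neg_neg, mul_assoc, G_anti a b ha hb hab, ← mul_assoc (G a) (G a), G_sq a ha,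
      one_mul]
  rw [E_pos b c hb hc hbc, E_pos a b ha hb hab, E_pos a c ha hc hac]
  simp only [neg_mul, mul_neg, neg_neg]
  rw [mul_assoc (G a) (G b), ← mul_assoc (G b) (G a), G_anti a b ha hb hab]
  simp only [neg_mul, mul_neg, neg_neg, ← mul_assoc, G_sq a ha, one_mul]

theorem E_swap (i j : Fin 8) (h : i ≠ j) : E j i = -(E i j) := by
  by_cases hi : i = 0
  · subst hi; rw [E_self_zero j h.symm, E_zero j h.symm]
  by_cases hj : j = 0
  · subst hj; rw [E_self_zero i hi, E_zero i hi, neg_neg]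
  rw [E_pos i j hi hj h, E_pos j i hj hi h.symm, G_anti i j hi hj h]

/-- The pairs `(u, σ)` with `u` inducing `σ`. -/
def K : Subgroup (M8ˣ × alternatingGroup (Fin 8)) where
  carrier := {p | ∀ i j, SemiconjBy (p.1 : M8) (E i j) (E ((p.2 : Perm (Fin 8)) i) ((p.2 : Perm (Fin 8)) j))}
  one_mem' := fun i j => by simpa using SemiconjBy.one_left (E i j)
  mul_mem' := fun {p q} hp hq i j => by
    have h := (hp ((q.2 : Perm (Fin 8)) i) ((q.2 : Perm (Fin 8)) j)).mul_left (hq i j)
    simpa using h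
  inv_mem' := fun {p} hp i j => by
    have h := hp ((p.2 : Perm (Fin 8))⁻¹ i) ((p.2 : Perm (Fin 8))⁻¹ j)
    rw [Equiv.Perm.coe_inv, Equiv.apply_symm_apply, Equiv.apply_symm_apply] at h
    simpa using h.units_inv_symm_left

theorem mem_K_of_zero {u : M8ˣ} {σ : alternatingGroup (Fin 8)}
    (h : ∀ j : Fin 8, j ≠ 0 → SemiconjBy (u : M8) (E 0 j) (E ((σ : Perm (Fin 8)) 0) ((σ : Perm (Fin 8)) j))) :
    (u, σ) ∈ K := by
  intro i j
  show SemiconjBy (u : M8) (E i j) (E ((σ : Perm (Fin 8)) i) ((σ : Perm (Fin 8)) j))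
  by_cases hij : i = j
  · subst hij
    rw [E, if_pos rfl, E, if_pos rfl]
    exact SemiconjBy.one_right _
  have hne : ∀ {a b : Fin 8}, a ≠ b → (σ : Perm (Fin 8)) a ≠ (σ : Perm (Fin 8)) b :=
    fun h e => h ((σ : Perm (Fin 8)).injective e)
  by_cases hi : i = 0
  · subst hi; exact h j (Ne.symm hij)
  by_cases hj : j = 0
  · subst hj
    rw [E_swap 0 i (Ne.symm hi), E_swap _ _ (hne (Ne.symm hi))]
    exact (h i hi).neg_right
  rw [E_triple 0 i j (Ne.symm hi) (Ne.symm hj) hij,
    E_triple ((σ : Perm (Fin 8)) 0) ((σ : Perm (Fin 8)) i) ((σ : Perm (Fin 8)) j) (hne (Ne.symm hi))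
      (hne (Ne.symm hj)) (hne hij)]
  exact ((h i hi).mul_right (h j hj)).neg_right

/-- The double cover. -/
abbrev H : Type := ↥K

instance : Finite H := Subtype.finite

/-- The projection. -/
def π : H →* alternatingGroup (Fin 8) := (MonoidHom.snd _ _).comp K.subtype

theorem three_even (k : Fin 8) (hk : k ≠ 0) (hk1 : k ≠ 1) :
    (swap 0 1 * swap 1 k : Perm (Fin 8)) ∈ alternatingGroup (Fin 8) := by
  rw [Equiv.Perm.mem_alternatingGroup, map_mul, Equiv.Perm.sign_swap (by decide),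
    Equiv.Perm.sign_swap (Ne.symm hk1)]
  rfl

/-- A lift of a three-cycle. -/
def lift3 (k : Fin 8) : M8 := -(E 0 1) + E 0 k + 1 - E 1 k

/-- The identities behind the lift of a three-cycle. -/
theorem ring_three {R : Type*} [Ring R] (h3 : (3 : R) = 0) {a b : R} (ha : a * a = -1) (hb : b * b = -1)
    (hba : b * a = -(a * b)) :
    (-a + b + 1 + a * b) * (1 + a - b - a * b) = 1 ∧ (1 + a - b - a * b) * (-a + b + 1 + a * b) = 1 ∧
    (-a + b + 1 + a * b) * a = -(a * b) * (-a + b + 1 + a * b) ∧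
    (-a + b + 1 + a * b) * b = -a * (-a + b + 1 + a * b) ∧
    ∀ c : R, c * a = -(a * c) → c * b = -(b * c) →
      (-a + b + 1 + a * b) * c = -(a * c) * (-a + b + 1 + a * b) := by
  have hba' : ∀ x : R, b * (a * x) = -(a * (b * x)) := fun x => by rw [← mul_assoc, hba, neg_mul, mul_assoc]
  have ha' : ∀ x : R, a * (a * x) = -x := fun x => by rw [← mul_assoc, ha, neg_one_mul]
  have hb' : ∀ x : R, b * (b * x) = -x := fun x => by rw [← mul_assoc, hb, neg_one_mul]
  have h4 : (1 : R) + 1 + 1 + 1 = 1 := by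
    have : (1 : R) + 1 + 1 = 0 := by rw [← h3]; norm_num
    rw [this, zero_add]
  refine ⟨Eq.trans ?_ h4, Eq.trans ?_ h4, ?_, ?_, fun c hca hcb => ?_⟩
  all_goals first
    | (simp only [mul_add, add_mul, mul_sub, sub_mul, mul_neg, neg_mul, one_mul, mul_one, mul_assoc, ha, hb, hba,
        ha', hb', hba', neg_neg]
       abel)
    | skip
  have hca' : ∀ x : R, c * (a * x) = -(a * (c * x)) := fun x => by rw [← mul_assoc, hca, neg_mul, mul_assoc]
  simp only [mul_add, add_mul, mul_sub, sub_mul, mul_neg, neg_mul, one_mul, mul_one, mul_assoc, ha, hb, hba,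
    ha', hb', hba', hca, hca', hcb, neg_neg]
  abel

theorem lift3_eq (k : Fin 8) (hk : k ≠ 0) (hk1 : k ≠ 1) : lift3 k = -G 1 + G k + 1 + G 1 * G k := by
  rw [lift3, E_zero 1 (by decide), E_zero k hk, E_pos 1 k (by decide) hk hk1.symm, sub_neg_eq_add]

theorem lift3_spec (k : Fin 8) (hk : k ≠ 0) (hk1 : k ≠ 1) : IsUnit (lift3 k) ∧
    ∀ j : Fin 8, j ≠ 0 → lift3 k * E 0 j = E ((swap 0 1 * swap 1 k : Perm (Fin 8)) 0)
      ((swap 0 1 * swap 1 k : Perm (Fin 8)) j) * lift3 k := by
  have h3 : (3 : M8) = 0 := by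
    rw [show (3 : M8) = Matrix.diagonal (fun _ => (3 : ZMod 3)) from (Matrix.diagonal_ofNat 3).symm,
      show (3 : ZMod 3) = 0 from by decide, Matrix.diagonal_zero]
  have h1 : (1 : Fin 8) ≠ 0 := by decide
  obtain ⟨u1, u2, cA, cB, cC⟩ := ring_three h3 (G_sq 1 h1) (G_sq k hk) (G_anti 1 k h1 hk hk1.symm)
  rw [lift3_eq k hk hk1]
  refine ⟨⟨⟨_, _, u1, u2⟩, rfl⟩, fun j hj => ?_⟩
  have e0 : (swap 0 1 * swap 1 k : Perm (Fin 8)) 0 = 1 := by
    rw [Equiv.Perm.mul_apply, swap_apply_of_ne_of_ne h1.symm hk.symm, swap_apply_left]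
  rw [e0, E_zero j hj]
  by_cases j1 : j = 1
  · subst j1
    rw [show (swap 0 1 * swap 1 k : Perm (Fin 8)) 1 = k by
      rw [Equiv.Perm.mul_apply, swap_apply_left, swap_apply_of_ne_of_ne hk hk1], E_pos 1 k h1 hk hk1.symm]
    exact cA
  by_cases jk : j = k
  · subst jk
    rw [show (swap 0 1 * swap 1 j : Perm (Fin 8)) j = 0 by
      rw [Equiv.Perm.mul_apply, swap_apply_right, swap_apply_right], E_self_zero 1 h1]
    exact cB
  rw [show (swap 0 1 * swap 1 k : Perm (Fin 8)) j = j by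
    rw [Equiv.Perm.mul_apply, swap_apply_of_ne_of_ne j1 jk, swap_apply_of_ne_of_ne hj j1],
    E_pos 1 j h1 hj (Ne.symm j1)]
  exact cC _ (G_anti 1 j h1 hj (Ne.symm j1)) (G_anti k j hk hj (Ne.symm jk))

theorem three_mem (k : Fin 8) (hk : k ≠ 0) (hk1 : k ≠ 1) :
    (swap 0 1 * swap 1 k : Perm (Fin 8)) ∈ π.range.map (alternatingGroup (Fin 8)).subtype := by
  refine ⟨⟨_, three_even k hk hk1⟩, ⟨⟨((lift3_spec k hk hk1).1.unit, ⟨_, three_even k hk hk1⟩), ?_⟩, rfl⟩, rfl⟩
  exact mem_K_of_zero fun j hj => (lift3_spec k hk hk1).2 j hj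

/-- Words for the products of two transpositions. -/
def words : List (List (List ℕ)) :=
  [[[], [], [0], [1], [2], [3], [4], [5]],
  [[], [], [0, 0], [1, 1], [2, 2], [3, 3], [4, 4], [5, 5]],
  [[0], [0, 0], [], [0, 1, 1, 0], [0, 2, 2, 0], [0, 3, 3, 0], [0, 4, 4, 0], [0, 5, 5, 0]],
  [[1], [1, 1], [0, 1, 1, 0], [], [1, 2, 2, 1], [1, 3, 3, 1], [1, 4, 4, 1], [1, 5, 5, 1]],
  [[2], [2, 2], [0, 2, 2, 0], [1, 2, 2, 1], [], [2, 3, 3, 2], [2, 4, 4, 2], [2, 5, 5, 2]],
  [[3], [3, 3], [0, 3, 3, 0], [1, 3, 3, 1], [2, 3, 3, 2], [], [3, 4, 4, 3], [3, 5, 5, 3]],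
  [[4], [4, 4], [0, 4, 4, 0], [1, 4, 4, 1], [2, 4, 4, 2], [3, 4, 4, 3], [], [4, 5, 5, 4]],
  [[5], [5, 5], [0, 5, 5, 0], [1, 5, 5, 1], [2, 5, 5, 2], [3, 5, 5, 3], [4, 5, 5, 4], []]]

/-- Evaluation of a word. -/
def evalW (l : List ℕ) : Perm (Fin 8) :=
  l.foldl (fun p j => p * (swap 0 1 * swap 1 (Fin.ofNat 8 (j + 2)))) 1

theorem words_check : ∀ a b : Fin 8, a ≠ b →
    (((words.getD a []).getD b []).all fun j => decide (j < 6)) = true ∧
    ∀ x : Fin 8, evalW ((words.getD a []).getD b []) x = (swap a b * swap 0 1 : Perm (Fin 8)) x := by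
  decide +kernel

theorem evalW_mem : ∀ l : List ℕ, (l.all fun j => decide (j < 6)) = true → ∀ p : Perm (Fin 8),
    p ∈ π.range.map (alternatingGroup (Fin 8)).subtype →
    l.foldl (fun p j => p * (swap 0 1 * swap 1 (Fin.ofNat 8 (j + 2)))) p ∈
      π.range.map (alternatingGroup (Fin 8)).subtype
  | [], _, p, hp => hp
  | j :: l, h, p, hp => by
    simp only [List.all_cons, Bool.and_eq_true, decide_eq_true_eq] at h
    refine evalW_mem l h.2 _ (Subgroup.mul_mem _ hp ?_)
    have hv : (Fin.ofNat 8 (j + 2)).val = j + 2 := Nat.mod_eq_of_lt (by omega)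
    refine three_mem _ (fun e => ?_) (fun e => ?_) <;>
    · have := congrArg Fin.val e; rw [hv] at this; simp at this

theorem pair_mem (a b : Fin 8) (h : a ≠ b) :
    (swap a b * swap 0 1 : Perm (Fin 8)) ∈ π.range.map (alternatingGroup (Fin 8)).subtype := by
  rw [← Equiv.ext (words_check a b h).2]
  exact evalW_mem _ (words_check a b h).1 1 (one_mem _)

theorem surjective : Function.Surjective π := by
  classical
  set R := π.range.map (alternatingGroup (Fin 8)).subtype with hR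
  have key : ∀ σ : Perm (Fin 8), (Equiv.Perm.sign σ = 1 → σ ∈ R) ∧
      (Equiv.Perm.sign σ = -1 → swap 0 1 * σ ∈ R) := by
    intro σ
    refine Equiv.Perm.swap_induction_on σ ⟨fun _ => one_mem _, fun h => ?_⟩ fun τ a b hab ih => ?_
    · exact absurd ((map_one _).symm.trans h) (by decide)
    · rw [map_mul, Equiv.Perm.sign_swap hab]
      refine ⟨fun h => ?_, fun h => ?_⟩
      · have hτ : Equiv.Perm.sign τ = -1 := by rw [← h]; simp
        rw [show swap a b * τ = (swap a b * swap 0 1) * (swap 0 1 * τ) by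
          rw [mul_assoc, ← mul_assoc (swap 0 1), swap_mul_self, one_mul]]
        exact mul_mem (pair_mem a b hab) (ih.2 hτ)
      · have hτ : Equiv.Perm.sign τ = 1 := by
          rw [neg_one_mul, neg_inj] at h; exact h
        rw [show swap 0 1 * (swap a b * τ) = (swap a b * swap 0 1)⁻¹ * τ by
          rw [mul_inv_rev, swap_inv, swap_inv, mul_assoc]]
        exact mul_mem (inv_mem (pair_mem a b hab)) (ih.1 hτ)
  intro σ
  obtain ⟨τ, ⟨h, hh⟩, hτ⟩ := (key σ.1).1 (Equiv.Perm.mem_alternatingGroup.1 σ.2)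
  exact ⟨h, hh.trans (Subtype.ext hτ)⟩

theorem diag_check :
    G 1 * G 2 * G 3 = Matrix.diagonal ![2,2,2,2,1,1,1,1] ∧ G 1 * G 4 * G 5 = Matrix.diagonal ![2,2,1,1,2,2,1,1] ∧
    G 2 * G 4 * G 6 = Matrix.diagonal ![2,1,2,1,2,1,2,1] := by decide +kernel

theorem sep : ∀ i j : Fin 8, i ≠ j →
    (![2,2,2,2,1,1,1,1] : Fin 8 → ZMod 3) i ≠ ![2,2,2,2,1,1,1,1] j ∨
    (![2,2,1,1,2,2,1,1] : Fin 8 → ZMod 3) i ≠ ![2,2,1,1,2,2,1,1] j ∨
    (![2,1,2,1,2,1,2,1] : Fin 8 → ZMod 3) i ≠ ![2,1,2,1,2,1,2,1] j := by decide +kernel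

theorem sgn_ne : ∀ i : Fin 8, sgn i i ≠ 0 := by decide +kernel

theorem scalar_of_commute (u : M8) (h : ∀ j : Fin 8, j ≠ 0 → Commute u (G j)) :
    u = Matrix.diagonal fun _ => u 0 0 := by
  obtain ⟨d1, d2, d3⟩ := diag_check
  have hoff : ∀ (d : Fin 8 → ZMod 3), Commute u (Matrix.diagonal d) → ∀ i j, d i ≠ d j → u i j = 0 := by
    intro d hd i j hne
    have he := congrFun (congrFun hd.eq i) j
    rw [Matrix.mul_diagonal, Matrix.diagonal_mul] at he
    by_contra hu
    exact hne (mul_right_cancel₀ hu ((mul_comm (u i j) (d j)).symm.trans he).symm)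
  have e1 := ((h 1 (by decide)).mul_right (h 2 (by decide))).mul_right (h 3 (by decide))
  have e2 := ((h 1 (by decide)).mul_right (h 4 (by decide))).mul_right (h 5 (by decide))
  have e3 := ((h 2 (by decide)).mul_right (h 4 (by decide))).mul_right (h 6 (by decide))
  rw [d1] at e1; rw [d2] at e2; rw [d3] at e3
  have hd : ∀ i j, i ≠ j → u i j = 0 := fun i j hij => by
    rcases sep i j hij with s | s | s
    exacts [hoff _ e1 i j s, hoff _ e2 i j s, hoff _ e3 i j s]
  ext i j
  by_cases hij : i = j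
  · subst hij
    rw [Matrix.diagonal_apply_eq]
    by_cases hi : i = 0
    · rw [hi]
    · have he := congrFun (congrFun (h i hi).eq i) 0
      rw [Matrix.mul_apply, Matrix.mul_apply, Finset.sum_eq_single i
        (fun l _ hl => by rw [hd i l (Ne.symm hl), zero_mul]) (fun hh => absurd (Finset.mem_univ _) hh),
        Finset.sum_eq_single 0 (fun l _ hl => by rw [hd l 0 hl, mul_zero])
          (fun hh => absurd (Finset.mem_univ _) hh)] at he
      have hg : G i i 0 = sgn i i := by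
        simp [G, Matrix.of_apply]
      rw [hg, mul_comm (sgn i i)] at he
      exact mul_right_cancel₀ (sgn_ne i) he
  · rw [Matrix.diagonal_apply_ne _ hij, hd i j hij]

theorem ker_cases {p : H} (hp : π p = 1) : (p.1.1 : M8) = 1 ∨ (p.1.1 : M8) = -1 := by
  have h1 : p.1.2 = 1 := hp
  have hG : ∀ j : Fin 8, j ≠ 0 → Commute (p.1.1 : M8) (G j) := fun j hj => by
    have := p.2 0 j
    rw [h1] at this
    simp only [OneMemClass.coe_one, Equiv.Perm.one_apply, E, if_neg (Ne.symm hj), if_pos] at this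
    exact this
  have hs := scalar_of_commute _ hG
  have h3 : ∀ a : ZMod 3, a = 0 ∨ a = 1 ∨ a = -1 := by decide
  rcases h3 ((p.1.1 : M8) 0 0) with h | h | h <;> rw [h] at hs
  · exfalso
    have : (p.1.1 : M8) = 0 := by rw [hs, Matrix.diagonal_zero]
    exact p.1.1.isUnit.ne_zero this
  · left; rw [hs, Matrix.diagonal_one]
  · right; rw [hs, ← Matrix.diagonal_one, Matrix.diagonal_neg]

/-- The central involution. -/
def z : H := ⟨(-1, 1), fun i j => by simpa using (Commute.one_left (E i j)).neg_left⟩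

theorem z_ne : z ≠ 1 := fun h => by
  have := congrArg (fun p : H => (p.1.1 : M8) 0 0) h
  simp [z] at this
  exact absurd this (by decide)

theorem z_central (p : H) : p * z = z * p := by
  apply Subtype.ext
  refine Prod.ext (Units.ext ?_) ?_
  · show (p.1.1 : M8) * ((-1 : M8ˣ) : M8) = ((-1 : M8ˣ) : M8) * p.1.1
    simp
  · show p.1.2 * 1 = 1 * p.1.2
    simp

theorem ker_eq {p : H} (hp : π p = 1) : p = 1 ∨ p = z := by
  have h1 : p.1.2 = 1 := hp
  rcases ker_cases hp with h | h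
  · exact Or.inl (Subtype.ext (Prod.ext (Units.ext h) h1))
  · exact Or.inr (Subtype.ext (Prod.ext (Units.ext (by rw [h]; rfl)) h1))

theorem center_eq : Subgroup.center H = π.ker := by
  refine le_antisymm (fun p hp => ?_) (fun p hp => ?_)
  · rw [MonoidHom.mem_ker]
    have hc : π p ∈ Subgroup.center (alternatingGroup (Fin 8)) := Subgroup.mem_center_iff.2 fun g => by
      obtain ⟨q, rfl⟩ := surjective g
      rw [← map_mul, ← map_mul, Subgroup.mem_center_iff.1 hp q]
    rw [alternatingGroup.center_eq_bot (by simp)] at hc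
    exact hc
  · rcases ker_eq (MonoidHom.mem_ker.1 hp) with rfl | rfl
    · exact one_mem _
    · exact Subgroup.mem_center_iff.2 z_central

/-- A lift of an involution with square `-1`. -/
def liftFour : M8 := -(E 0 2 - E 0 3 - E 1 2 + E 1 3)

/-- A lift of a product of four transpositions, of square `1`. -/
def liftEight : M8 := (E 0 2 - E 0 3 - E 1 2 + E 1 3) * (E 4 6 - E 4 7 - E 5 6 + E 5 7)

/-- A double transposition. -/
def permFour : Perm (Fin 8) := swap 0 1 * swap 2 3

/-- A product of four transpositions. -/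
def permEight : Perm (Fin 8) := swap 0 1 * swap 2 3 * (swap 4 5 * swap 6 7)

theorem lifts_check : liftFour * liftFour = -1 ∧ liftEight * liftEight = 1 ∧
    (∀ j : Fin 8, j ≠ 0 → liftFour * E 0 j = E (permFour 0) (permFour j) * liftFour) ∧
    (∀ j : Fin 8, j ≠ 0 → liftEight * E 0 j = E (permEight 0) (permEight j) * liftEight) ∧
    permFour 0 = 1 ∧ permFour (permFour 0) = 0 ∧ (∀ x, permFour (permFour x) = x) ∧ permEight 0 = 1 := by
  decide +kernel

theorem perms_even : permFour ∈ alternatingGroup (Fin 8) ∧ permEight ∈ alternatingGroup (Fin 8) := by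
  constructor <;> rw [Equiv.Perm.mem_alternatingGroup] <;> decide +kernel

/-- The lift of the double transposition. -/
def four : H :=
  ⟨(⟨liftFour, -liftFour, by rw [mul_neg, lifts_check.1, neg_neg], by rw [neg_mul, lifts_check.1, neg_neg]⟩,
    ⟨permFour, perms_even.1⟩), mem_K_of_zero fun j hj => lifts_check.2.2.1 j hj⟩

/-- The lift of the product of four transpositions. -/
def eight : H :=
  ⟨(⟨liftEight, liftEight, lifts_check.2.1, lifts_check.2.1⟩, ⟨permEight, perms_even.2⟩),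
    mem_K_of_zero fun j hj => lifts_check.2.2.2.1 j hj⟩

theorem four_sq : four * four = z := by
  refine Subtype.ext (Prod.ext (Units.ext ?_) (Subtype.ext (Equiv.ext fun x => ?_)))
  · show liftFour * liftFour = ((-1 : M8ˣ) : M8)
    rw [lifts_check.1]; simp
  · exact lifts_check.2.2.2.2.2.2.1 x

theorem permEight_sq : ∀ x, permEight (permEight x) = x := by decide +kernel

theorem eight_val : (eight.1.1 : M8) = liftEight := rfl

theorem eight_perm : (eight.1.2 : Perm (Fin 8)) = permEight := rfl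

theorem eight_sq : eight * eight = 1 := by
  have h : π (eight * eight) = 1 := by
    rw [map_mul]
    apply Subtype.ext
    apply Equiv.ext
    intro x
    rw [Subgroup.coe_mul, Equiv.Perm.mul_apply, OneMemClass.coe_one, Equiv.Perm.one_apply]
    have he : (π eight : Perm (Fin 8)) = permEight := eight_perm
    rw [he]
    exact permEight_sq x
  refine (ker_eq h).resolve_right fun e => ?_
  have h1 := congrArg (fun p : H => (p.1.1 : M8)) e
  simp only [Subgroup.coe_mul, Prod.fst_mul, Units.val_mul, eight_val, lifts_check.2.1, z, Units.val_neg,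
    Units.val_one] at h1
  have h2 := congrFun (congrFun h1 0) 0
  rw [Matrix.neg_apply, Matrix.one_apply_eq] at h2
  exact absurd h2 (by decide)

theorem z_sq : z * z = 1 := by
  refine Subtype.ext (Prod.ext (Units.ext ?_) rfl)
  show ((-1 : M8ˣ) : M8) * ((-1 : M8ˣ) : M8) = 1
  simp

theorem spec : Cfsg.IsNonsplitDoubleCover H (alternatingGroup (Fin 8)) ∧
    ∃ x y : H, x ≠ y ∧ orderOf x = 2 ∧ orderOf y = 2 := by
  haveI : Fact (Nat.Prime 2) := ⟨Nat.prime_two⟩
  have hz : z ∈ Subgroup.center H := Subgroup.mem_center_iff.2 z_central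
  have hcard : Nat.card (Subgroup.center H) = 2 := by
    rw [Nat.card_eq_two_iff]
    refine ⟨1, ⟨z, hz⟩, fun e => z_ne (congrArg Subtype.val e).symm, Set.eq_univ_of_forall fun w => ?_⟩
    rcases ker_eq (MonoidHom.mem_ker.1 (center_eq.le w.2)) with h | h
    · exact Or.inl (Subtype.ext h)
    · exact Or.inr (Subtype.ext h)
  refine ⟨⟨hcard, ⟨(QuotientGroup.quotientMulEquivOfEq center_eq).trans
    (QuotientGroup.quotientKerEquivOfSurjective π surjective)⟩, fun L hL => ?_⟩, eight, z, ?_, ?_, ?_⟩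
  · obtain ⟨⟨c, v⟩, hcv⟩ := hL.2 four
    have hcv' : (c : H) * v = four := hcv
    rcases ker_eq (MonoidHom.mem_ker.1 (center_eq.le c.2)) with h | h
    all_goals
      have hvv : (v : H) * v = z := by
        rw [← four_sq, ← hcv', h]
        first
          | simp
          | (rw [mul_assoc z (v : H) (z * v), ← mul_assoc (v : H) z v, z_central (v : H), mul_assoc z (v : H) v,
              ← mul_assoc z z, z_sq, one_mul])
      have : z ∈ Subgroup.center H ⊓ L := ⟨hz, hvv ▸ L.mul_mem v.2 v.2⟩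
      rw [disjoint_iff.1 hL.disjoint, Subgroup.mem_bot] at this
      exact z_ne this
  · intro h
    have := congrArg (fun p : H => (p.1.2 : Perm (Fin 8)) 0) h
    exact absurd (lifts_check.2.2.2.2.2.2.2.symm.trans this) (by decide +kernel)
  · refine orderOf_eq_prime (by rw [pow_two]; exact eight_sq) fun h => ?_
    have := congrArg (fun p : H => (p.1.2 : Perm (Fin 8)) 0) h
    exact absurd (lifts_check.2.2.2.2.2.2.2.symm.trans this) (by decide +kernel)
  · refine orderOf_eq_prime (by rw [pow_two]; exact z_sq) z_ne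

end Cfsg.Lib.DoubleCoverEight
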